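import Cfsg.Agent.H183.SemisSU
import Cfsg.Agent.H176.SSDet
import Cfsg.Agent.H709.CharPow

/-!
# Power maps in `SL_n(q)` and `SU_n(q)` (helper39, task N2S-CjLU)
-/

set_option autoImplicit false
set_option linter.unusedSectionVars false

namespace Cfsg.Agent.N2.Ex.Sm.LU

open Cfsg Subgroup
open Cfsg.Agent.H186 Cfsg.Agent.ClassicalGeometry.GUBasic

/-- an element of order `r` which is conjugate to its `j`-th power -/
def Pw (G : Type*) [Group G] (r j : ℕ) : Prop := ∃ g : G, orderOf g = r ∧ IsConj g (g ^ j)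

theorem Pw.map {G H : Type*} [Group G] [Group H] {r j : ℕ} (f : G →* H) (hf : Function.Injective f) (h : Pw G r j) :
    Pw H r j := by
  obtain ⟨g, h1, h2⟩ := h
  exact ⟨f g, by rw [orderOf_injective f hf, h1], by rw [← map_pow]; exact f.map_isConj h2⟩

/-- passage to the quotient by the centre -/
theorem Pw.quot {G : Type*} [Group G] {r j : ℕ} (hr : r.Prime) (h : Pw G r j) (hj : (j : ZMod r) ≠ 1) :
    Pw (G ⧸ center G) r j := by
  obtain ⟨g, h1, h2⟩ := h
  have : Fact r.Prime := ⟨hr⟩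
  refine ⟨QuotientGroup.mk' _ g, ?_, by rw [← map_pow]; exact (QuotientGroup.mk' _).map_isConj h2⟩
  apply orderOf_eq_prime
  · rw [← map_pow, ← h1, pow_orderOf_eq_one, map_one]
  · intro h0
    have hz : g ∈ center G := (QuotientGroup.eq_one_iff g).1 h0
    obtain ⟨c, hc⟩ := isConj_iff.1 h2
    have h3 : g ^ j = g ^ 1 := by
      rw [← hc, mem_center_iff.1 hz c, pow_one, mul_inv_cancel_right]
    rw [pow_eq_pow_iff_modEq, h1] at h3
    exact hj (by rw [(ZMod.natCast_eq_natCast_iff _ _ _).2 h3, Nat.cast_one])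

theorem cop_pow {G : Type*} [Group G] {g : G} {p : ℕ} (h : (orderOf g).Coprime p) (j : ℕ) : (orderOf (g ^ j)).Coprime p :=
  h.coprime_dvd_left (orderOf_pow_dvd j)

section SL

variable {F : Type} [Field F] [Fintype F]

theorem char_of_card {s a : ℕ} (hs : s.Prime) (hF : Fintype.card F = s ^ a) : CharP F s := by
  have : Fact s.Prime := ⟨hs⟩
  exact charP_of_card_eq_prime_pow hF

/-- an element of order `r` in `SL_n(F)`, conjugate to its `|F|`-th power -/
theorem sl_own {s n r : ℕ} [Fact s.Prime] [CharP F s] (hr : r.Prime) (hrs : r ≠ s)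
    (h2 : orderOf ((Fintype.card F : ℕ) : ZMod r) ≠ 1) (h0 : 0 < orderOf ((Fintype.card F : ℕ) : ZMod r))
    (hn : orderOf ((Fintype.card F : ℕ) : ZMod r) ≤ n) : Pw (Matrix.SpecialLinearGroup (Fin n) F) r (Fintype.card F) := by
  classical
  have : Fact r.Prime := ⟨hr⟩
  set q := Fintype.card F with hq
  set i := orderOf ((q : ℕ) : ZMod r) with hi
  have hq1 : 1 ≤ q := Fintype.card_pos
  have hd : r ∣ Nat.card (GL (Fin n) F) := by
    rw [Matrix.card_GL_field]
    refine Dvd.dvd.trans ?_ (Finset.dvd_prod_of_mem _ (Finset.mem_univ (⟨n - i, by omega⟩ : Fin n)))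
    have h1 : q ^ n - q ^ (n - i) = q ^ (n - i) * (q ^ i - 1) := by
      rw [Nat.mul_sub, mul_one, ← pow_add, Nat.sub_add_cancel hn]
    show r ∣ q ^ n - q ^ (n - i)
    rw [h1]
    refine Dvd.dvd.mul_left ?_ _
    rw [← ZMod.natCast_eq_zero_iff, Nat.cast_sub (Nat.one_le_pow _ _ hq1), Nat.cast_pow, hi, pow_orderOf_eq_one,
      Nat.cast_one, sub_self]
  obtain ⟨g, hg⟩ := exists_prime_orderOf_dvd_card' r hd
  have hdet : Matrix.GeneralLinearGroup.det g = 1 := by
    by_contra hne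
    have h1 : orderOf (Matrix.GeneralLinearGroup.det g) = r :=
      orderOf_eq_prime (by rw [← map_pow, ← hg, pow_orderOf_eq_one, map_one]) hne
    have h3 : r ∣ q - 1 := by
      rw [← h1, hq, ← Fintype.card_units]
      exact orderOf_dvd_card
    apply h2
    rw [hi, orderOf_eq_one_iff, ← Nat.sub_add_cancel hq1, Nat.cast_add, (ZMod.natCast_eq_zero_iff _ _).2 h3, zero_add,
      Nat.cast_one]
  let u : Matrix.SpecialLinearGroup (Fin n) F := ⟨g.val, by simpa using congrArg Units.val hdet⟩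
  have hu : orderOf u = r := by
    rw [← hg, ← orderOf_injective (Matrix.SpecialLinearGroup.toGL (n := Fin n) (R := F)) Matrix.SpecialLinearGroup.toGL_injective u]
    congr 1
    exact Units.ext rfl
  have hc : (orderOf u).Coprime s := by
    rw [hu]; exact (Nat.coprime_primes hr Fact.out).2 hrs
  refine ⟨u, hu, H176.SSDet.sl_isConj s n u _ hc (cop_pow hc _) ?_⟩
  rw [Matrix.SpecialLinearGroup.coe_pow, hq, FiniteField.Matrix.charpoly_pow_card]

theorem map_inj {K : Type} [Field K] (f : K →+* F) (n : ℕ) :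
    Function.Injective (Matrix.SpecialLinearGroup.map (n := Fin n) f) := by
  intro x y h
  apply Subtype.ext
  have h1 := congrArg Subtype.val h
  exact Matrix.map_injective f.injective h1

/-- the same for a subfield -/
theorem sl_sub {s a b n r : ℕ} (hs : s.Prime) (ha : 1 ≤ a) (hF : Fintype.card F = s ^ a) (hb : b ∣ a) (hr : r.Prime)
    (hrs : r ≠ s) (h2 : orderOf ((s ^ b : ℕ) : ZMod r) ≠ 1) (h0 : 0 < orderOf ((s ^ b : ℕ) : ZMod r))
    (hn : orderOf ((s ^ b : ℕ) : ZMod r) ≤ n) : Pw (Matrix.SpecialLinearGroup (Fin n) F) r (s ^ b) := by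
  classical
  have : Fact s.Prime := ⟨hs⟩
  have := char_of_card hs hF
  have hb0 : b ≠ 0 := by
    rintro rfl
    rw [zero_dvd_iff] at hb
    omega
  let K := GaloisField s b
  let _ : Fintype K := Fintype.ofFinite K
  have hK : Fintype.card K = s ^ b := by rw [← Nat.card_eq_fintype_card, GaloisField.card s b hb0]
  let _ : Algebra (ZMod s) F := ZMod.algebra F s
  have hfr : Module.finrank (ZMod s) F = a := by
    have h1 := Module.card_eq_pow_finrank (K := ZMod s) (V := F)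
    rw [hF, ZMod.card] at h1
    exact (Nat.pow_right_injective hs.two_le h1).symm
  obtain ⟨f⟩ : Nonempty (K →ₐ[ZMod s] F) := by
    apply FiniteField.nonempty_algHom_of_finrank_dvd
    rw [hfr, GaloisField.finrank s hb0]
    exact hb
  have h := sl_own (F := K) (s := s) (n := n) hr hrs (by rwa [hK]) (by rwa [hK]) (by rwa [hK])
  rw [hK] at h
  exact h.map (Matrix.SpecialLinearGroup.map (f : K →+* F)) (map_inj _ n)

/-- semisimple elements of `SL₂` are real -/
theorem sl_two {s r : ℕ} [Fact s.Prime] [CharP F s] (hr : r.Prime) (hrs : r ≠ s)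
    (hd : r ∣ Nat.card (Matrix.SpecialLinearGroup (Fin 2) F)) : Pw (Matrix.SpecialLinearGroup (Fin 2) F) r (r - 1) := by
  have : Fact r.Prime := ⟨hr⟩
  obtain ⟨u, hu⟩ := exists_prime_orderOf_dvd_card' r hd
  have hc : (orderOf u).Coprime s := by
    rw [hu]; exact (Nat.coprime_primes hr Fact.out).2 hrs
  refine ⟨u, hu, H176.SSDet.sl_isConj s 2 u _ hc (cop_pow hc _) ?_⟩
  have h1 : u ^ (r - 1) = u⁻¹ := by
    apply eq_inv_of_mul_eq_one_left
    rw [← pow_succ, Nat.sub_add_cancel hr.pos, ← hu, pow_orderOf_eq_one]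
  rw [h1, Matrix.charpoly_fin_two, Matrix.charpoly_fin_two, Matrix.SpecialLinearGroup.det_coe, Matrix.SpecialLinearGroup.det_coe,
    Matrix.SpecialLinearGroup.coe_inv, Matrix.adjugate_fin_two, Matrix.trace_fin_two, Matrix.trace_fin_two]
  simp [add_comm]

/-- a generator of the multiplicative group of the prime field -/
theorem exists_gen {s : ℕ} (hs : s.Prime) : ∃ j : ℕ, orderOf (j : ZMod s) = s - 1 := by
  have : Fact s.Prime := ⟨hs⟩
  obtain ⟨g, hg⟩ := IsCyclic.exists_ofOrder_eq_natCard (α := (ZMod s)ˣ)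
  refine ⟨(g : ZMod s).val, ?_⟩
  rw [ZMod.natCast_zmod_val, orderOf_units, hg, Nat.card_eq_fintype_card, ZMod.card_units]

theorem gen_pow {s j : ℕ} [Fact s.Prime] [CharP F s] (hj : orderOf (j : ZMod s) = s - 1) :
    (j : F) ^ (s - 1) = 1 := by
  have h := congrArg (ZMod.castHom (dvd_refl s) F) (pow_orderOf_eq_one (j : ZMod s))
  rwa [map_pow, map_natCast, map_one, hj] at h

/-- a unipotent matrix `1 + M`, `M ^ 2 = 0` -/
theorem unip_pow {n : ℕ} (M : Matrix (Fin n) (Fin n) F) (hM : M * M = 0) (k : ℕ) : (1 + M) ^ k = 1 + (k : F) • M := by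
  induction k with
  | zero => simp
  | succ k ih =>
    rw [pow_succ, ih, Nat.cast_succ, add_smul, one_smul, mul_add, mul_one, add_mul, one_mul, smul_mul_assoc, hM, smul_zero,
      add_zero, add_assoc]

/-- the general form of the three computations -/
theorem unip {n s j : ℕ} [Fact s.Prime] [CharP F s] (S : Subgroup (Matrix.SpecialLinearGroup (Fin n) F)) (t g : S)
    (M : Matrix (Fin n) (Fin n) F) (hM : M * M = 0) (h0 : M ≠ 0) (ht : t.1.1 = 1 + M)
    (hg : g.1.1 * M = (j : F) • (M * g.1.1)) : Pw S s j := by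
  have hp : ∀ k : ℕ, (t ^ k).1.1 = 1 + (k : F) • M := fun k => by
    rw [Subgroup.coe_pow, Matrix.SpecialLinearGroup.coe_pow, ht, unip_pow M hM]
  refine ⟨t, ?_, isConj_iff.2 ⟨g, ?_⟩⟩
  · apply orderOf_eq_prime
    · apply Subtype.ext
      apply Subtype.ext
      rw [hp, CharP.cast_eq_zero, zero_smul, add_zero]
      rfl
    · intro h
      apply h0
      rw [h] at ht
      exact left_eq_add.1 ht
  · rw [mul_inv_eq_iff_eq_mul]
    apply Subtype.ext
    apply Subtype.ext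
    show g.1.1 * t.1.1 = (t ^ j).1.1 * g.1.1
    rw [hp, ht, mul_add, add_mul, mul_one, one_mul, hg, smul_mul_assoc]

theorem tv_two {s j : ℕ} [Fact s.Prime] [CharP F s] (x : F) (hx : x ≠ 0) (hj : x * x = j) :
    Pw (Matrix.SpecialLinearGroup (Fin 2) F) s j := by
  refine Pw.map (⊤ : Subgroup _).subtype (Subgroup.subtype_injective _) ?_
  refine unip ⊤ ⟨⟨!![1, 1; 0, 1], by simp [Matrix.det_fin_two]⟩, mem_top _⟩
    ⟨⟨!![x, 0; 0, x⁻¹], by simp [Matrix.det_fin_two, hx]⟩, mem_top _⟩ !![0, 1; 0, 0] ?_ ?_ ?_ ?_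
  · ext a b; fin_cases a <;> fin_cases b <;> simp [Matrix.mul_apply, Fin.sum_univ_two]
  · intro h
    have := congrFun (congrFun h 0) 1
    simp at this
  · ext a b; fin_cases a <;> fin_cases b <;> simp
  · ext a b; fin_cases a <;> fin_cases b <;> simp [Matrix.mul_apply, Fin.sum_univ_two, ← hj, hx]

theorem tv_three {s j : ℕ} [Fact s.Prime] [CharP F s] (hj : (j : F) ≠ 0) :
    Pw (Matrix.SpecialLinearGroup (Fin 3) F) s j := by
  refine Pw.map (⊤ : Subgroup _).subtype (Subgroup.subtype_injective _) ?_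
  refine unip ⊤ ⟨⟨!![1, 0, 1; 0, 1, 0; 0, 0, 1], by simp [Matrix.det_fin_three]⟩, mem_top _⟩
    ⟨⟨!![(j : F), 0, 0; 0, (j : F)⁻¹, 0; 0, 0, 1], by simp [Matrix.det_fin_three, hj]⟩, mem_top _⟩
    !![0, 0, 1; 0, 0, 0; 0, 0, 0] ?_ ?_ ?_ ?_
  · ext a b; fin_cases a <;> fin_cases b <;> simp [Matrix.mul_apply, Fin.sum_univ_three]
  · intro h
    have := congrFun (congrFun h 0) 2
    simp at this
  · ext a b; fin_cases a <;> fin_cases b <;> simp
  · ext a b; fin_cases a <;> fin_cases b <;> simp [Matrix.mul_apply, Fin.sum_univ_three]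

end SL

section SU

variable {F : Type} [Field F] [Fintype F] {q n : ℕ}

theorem su_st (hF : Fintype.card F = q ^ 2) (s : ↥(Cfsg.SU n F q)) : st q s.1.1 * s.1.1 = 1 := by
  have h1 : ((s : Matrix.SpecialLinearGroup (Fin n) F) : GL (Fin n) F) ∈ Cfsg.GU n F q := s.2
  exact (mem_GU_iff_st hF _).1 h1

theorem su_mem (hF : Fintype.card F = q ^ 2) (s : Matrix.SpecialLinearGroup (Fin n) F) (h : st q s.1 * s.1 = 1) :
    s ∈ Cfsg.SU n F q := by
  intro u v
  have h1 : (⟨s.1, st q s.1, mul_eq_one_comm.1 h, h⟩ : GL (Fin n) F) ∈ Cfsg.GU n F q := (mem_GU_iff_st hF _).2 h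
  exact h1 u v

/-- a semisimple element of `SU_n(q)` is conjugate to its `-q`-th power -/
theorem su_neg {s a r : ℕ} (hs : s.Prime) (hF : Fintype.card F = (s ^ a) ^ 2) (hr : r.Prime) (hrs : r ≠ s)
    (hd : r ∣ Nat.card (Cfsg.SU n F (s ^ a))) : Pw (Cfsg.SU n F (s ^ a)) r ((r - 1) * s ^ a) := by
  have : Fact r.Prime := ⟨hr⟩
  have : Fact s.Prime := ⟨hs⟩
  have := char_of_card hs (hF.trans (pow_mul s a 2).symm)
  obtain ⟨u, hu⟩ := exists_prime_orderOf_dvd_card' r hd
  have hc : (orderOf u).Coprime s := by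
    rw [hu]; exact (Nat.coprime_primes hr hs).2 hrs
  refine ⟨u, hu, H183.Semis.su_isConj hF s u _ hc (cop_pow hc _) ?_⟩
  have h1 : u ^ (r - 1) * u = 1 := by
    rw [← pow_succ, Nat.sub_add_cancel hr.pos, ← hu, pow_orderOf_eq_one]
  have h2 : (u ^ (r - 1)).1.1 * u.1.1 = 1 := congrArg (fun z : Cfsg.SU n F (s ^ a) => z.1.1) h1
  have h3 : (u ^ (r - 1)).1.1 = st (s ^ a) u.1.1 := by
    rw [← mul_one (u ^ (r - 1)).1.1, ← mul_eq_one_comm.1 (su_st hF u), ← mul_assoc, h2, one_mul]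
  have h4 : st (s ^ a) u.1.1 = (u.1.1.map (iterateFrobenius F s a)).transpose := by
    ext i j
    simp [st_apply, iterateFrobenius_def]
  rw [pow_mul, Subgroup.coe_pow, Matrix.SpecialLinearGroup.coe_pow, H709.CharPow.charpoly_pow_char, h3, h4,
    Matrix.charpoly_transpose, Matrix.charpoly_map, Polynomial.map_map]
  have h5 : (iterateFrobenius F s a).comp (iterateFrobenius F s a) = RingHom.id F := by
    ext x
    simp [iterateFrobenius_def, pow_pow_q hF]
  rw [h5, Polynomial.map_id]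

/-- the norm is onto -/
theorem exists_norm (hF : Fintype.card F = q ^ 2) (y : F) (hy : y ^ (q - 1) = 1) : ∃ x : F, x ^ (q + 1) = y := by
  classical
  have hq := two_le hF
  have hy0 : y ≠ 0 := by
    rintro rfl
    rw [zero_pow (by omega)] at hy
    exact zero_ne_one hy
  obtain ⟨g, hg⟩ := IsCyclic.exists_generator (α := Fˣ)
  obtain ⟨k, hk⟩ := (Submonoid.mem_powers_iff _ _).1 (mem_powers_iff_mem_zpowers.2 (hg (Units.mk0 y hy0)))
  have ho : orderOf g = (q + 1) * (q - 1) := by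
    rw [orderOf_eq_card_of_forall_mem_zpowers hg, Nat.card_eq_fintype_card, Fintype.card_units, hF, ← Nat.sq_sub_sq]
  have h1 : g ^ (k * (q - 1)) = 1 := by
    rw [pow_mul, hk]
    exact Units.ext (by simpa using hy)
  have h2 := orderOf_dvd_of_pow_eq_one h1
  rw [ho] at h2
  obtain ⟨m, hm⟩ := Nat.dvd_of_mul_dvd_mul_right (by omega : 0 < q - 1) h2
  refine ⟨((g ^ m : Fˣ) : F), ?_⟩
  rw [← Units.val_pow_eq_pow_val, ← pow_mul, mul_comm, ← hm, hk]
  rfl

/-- a unitary transvection -/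
def mT (c α : F) : Matrix (Fin 3) (Fin 3) F := !![1 + c, -(c * α⁻¹), 0; c * α, 1 - c, 0; 0, 0, 1]

/-- its nilpotent part -/
def mM (c α : F) : Matrix (Fin 3) (Fin 3) F := !![c, -(c * α⁻¹), 0; c * α, -c, 0; 0, 0, 0]

/-- a torus element -/
def mG (x y z α : F) : Matrix (Fin 3) (Fin 3) F := !![x, y * α⁻¹, 0; y * α, x, 0; 0, 0, z]

theorem t_det (c α : F) (h : α ≠ 0) : (mT c α).det = 1 := by
  simp [mT, Matrix.det_fin_three]; field_simp; ring

theorem g_det (x y z α : F) (h : α ≠ 0) : (mG x y z α).det = (x + y) * (x - y) * z := by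
  simp [mG, Matrix.det_fin_three]; field_simp; ring

theorem t_map (σ : F →+* F) (c α : F) (hc : σ c = -c) (hα : σ α = -α⁻¹) : ((mT c α).map σ).transpose = mT (-c) α := by
  ext a b; fin_cases a <;> fin_cases b <;> simp [mT, hc, hα]

theorem g_map (σ : F →+* F) (x y z α : F) (hα : σ α = -α⁻¹) : ((mG x y z α).map σ).transpose = mG (σ x) (-σ y) (σ z) α := by
  ext a b; fin_cases a <;> fin_cases b <;> simp [mG, hα]

theorem t_mul (c α : F) (h : α ≠ 0) : mT (-c) α * mT c α = 1 := by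
  ext a b; fin_cases a <;> fin_cases b <;> simp [mT, Matrix.mul_apply, Fin.sum_univ_three] <;> field_simp <;> ring

theorem g_mul (x y z x' y' z' α : F) (h : α ≠ 0) :
    mG x y z α * mG x' y' z' α = mG (x * x' + y * y') (x * y' + y * x') (z * z') α := by
  ext a b; fin_cases a <;> fin_cases b <;> simp [mG, Matrix.mul_apply, Fin.sum_univ_three] <;> field_simp <;> ring

theorem g_one (α : F) : mG 1 0 1 α = 1 := by
  ext a b; fin_cases a <;> fin_cases b <;> simp [mG]

theorem m_sq (c α : F) (h : α ≠ 0) : mM c α * mM c α = 0 := by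
  ext a b; fin_cases a <;> fin_cases b <;> simp [mM, Matrix.mul_apply, Fin.sum_univ_three] <;> field_simp <;> ring

theorem t_eq (c α : F) : mT c α = 1 + mM c α := by
  ext a b; fin_cases a <;> fin_cases b <;> simp [mT, mM, sub_eq_add_neg]

theorem g_m (x y z c α : F) (h : α ≠ 0) : mG x y z α * mM c α = (x + y) • mM c α := by
  ext a b; fin_cases a <;> fin_cases b <;> simp [mG, mM, Matrix.mul_apply, Fin.sum_univ_three] <;> field_simp <;> ring

theorem m_g (x y z c α : F) (h : α ≠ 0) : mM c α * mG x y z α = (x - y) • mM c α := by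
  ext a b; fin_cases a <;> fin_cases b <;> simp [mG, mM, Matrix.mul_apply, Fin.sum_univ_three] <;> field_simp <;> ring

theorem tv_su {s j : ℕ} [Fact s.Prime] [CharP F s] (hF : Fintype.card F = q ^ 2) (h2 : (2 : F) ≠ 0) (hq : Odd q)
    (hj : (j : F) ^ (q - 1) = 1) : Pw (Cfsg.SU 3 F q) s j := by
  have hq2 := two_le hF
  obtain ⟨σ, hσ⟩ := exists_powHom hF
  obtain ⟨α, hα⟩ := exists_norm hF (-1) (by
    obtain ⟨k, rfl⟩ := hq
    rw [Nat.add_sub_cancel, pow_mul, neg_one_sq, one_pow])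
  obtain ⟨l, hl⟩ := exists_norm hF _ hj
  obtain ⟨c, hc0, hc⟩ := H183.Semis.exists_quot hF (-1) (by
    obtain ⟨k, rfl⟩ := hq
    rw [show 2 * k + 1 + 1 = 2 * (k + 1) by ring, pow_mul, neg_one_sq, one_pow])
  have hj0 : (j : F) ≠ 0 := by
    intro h
    rw [h, zero_pow (by omega)] at hj
    exact zero_ne_one hj
  rw [pow_succ, ← hσ] at hα hl
  rw [← hσ] at hc
  have hα0 : α ≠ 0 := by
    rintro rfl
    simp at hα
  have hl0 : l ≠ 0 := by
    rintro rfl
    exact hj0 (by simpa using hl.symm)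
  have hσσ : ∀ x, σ (σ x) = x := fun x => by rw [hσ, hσ, pow_pow_q hF]
  obtain ⟨m, hm⟩ : ∃ m, σ l = m := ⟨_, rfl⟩
  have hm' : σ m = l := by rw [← hm, hσσ]
  have hm0 : m ≠ 0 := by rw [← hm]; exact (map_ne_zero σ).2 hl0
  have hα' : σ α = -α⁻¹ := by
    field_simp
    exact hα
  have hst : ∀ M : Matrix (Fin 3) (Fin 3) F, st q M = (M.map σ).transpose := fun M => by
    ext a b
    simp [st_apply, hσ]
  have s2 : σ 2 = 2 := map_ofNat σ 2
  rw [hm] at hl
  have hx : (l + m⁻¹) / 2 + (l - m⁻¹) / 2 = l := by field_simp; ring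
  have hy : (l + m⁻¹) / 2 - (l - m⁻¹) / 2 = m⁻¹ := by field_simp; ring
  have sx : σ ((l + m⁻¹) / 2) = (m + l⁻¹) / 2 := by rw [map_div₀, map_add, map_inv₀, hm, hm', s2]
  have sy : σ ((l - m⁻¹) / 2) = (m - l⁻¹) / 2 := by rw [map_div₀, map_sub, map_inv₀, hm, hm', s2]
  have sz : σ (m * l⁻¹) = l * m⁻¹ := by rw [map_mul, map_inv₀, hm, hm']
  have d1 : (mG ((l + m⁻¹) / 2) ((l - m⁻¹) / 2) (m * l⁻¹) α).det = 1 := by
    rw [g_det _ _ _ _ hα0, hx, hy]; field_simp
  have u1 : st q (mT c α) * mT c α = 1 := by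
    rw [hst, t_map σ c α (by rw [hc, neg_one_mul]) hα', t_mul c α hα0]
  have u2 : st q (mG ((l + m⁻¹) / 2) ((l - m⁻¹) / 2) (m * l⁻¹) α) * mG ((l + m⁻¹) / 2) ((l - m⁻¹) / 2) (m * l⁻¹) α = 1 := by
    rw [hst, g_map σ _ _ _ α hα', g_mul _ _ _ _ _ _ _ hα0, sx, sy, sz, ← g_one α]
    congr 1
    · field_simp; ring
    · field_simp; ring
    · field_simp
  refine unip (Cfsg.SU 3 F q) ⟨⟨mT c α, t_det c α hα0⟩, su_mem hF _ u1⟩ ⟨⟨_, d1⟩, su_mem hF _ u2⟩ (mM c α) (m_sq c α hα0) ?_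
    (t_eq c α) ?_
  · intro h
    have := congrFun (congrFun h 0) 0
    exact hc0 (by simpa [mM] using this)
  · show mG _ _ _ α * mM c α = (j : F) • (mM c α * mG _ _ _ α)
    rw [g_m _ _ _ _ _ hα0, m_g _ _ _ _ _ hα0, hx, hy, smul_smul, ← hl]
    congr 1
    field_simp

end SU

end Cfsg.Agent.N2.Ex.Sm.LU
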