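import Cfsg.Agent.H895.SLT.RowThree
import Cfsg.Agent.H895.SLT.RowFour

/-!
# N2 (S3519), box `L3`: a Singer element and an involution generate `SL₃(q)`, `q ≠ 4` (helper92)

`ov` is adapted from `H895.SLT.row_three`.
-/

set_option autoImplicit false
set_option linter.unusedSectionVars false

namespace Cfsg.Agent.N2.Ex.Sm.LT

open Cfsg Cfsg.Geo Cfsg.Agent.H895.SLT
open scoped MatrixGroups Matrix

variable {F : Type} [Field F] [Fintype F]

/-- no maximal subgroup contains a Singer element and an involution -/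
theorem ov (h4 : Fintype.card F ≠ 4) {K : Subalgebra F (Matrix (Fin 3) (Fin 3) F)} (hK : IsFieldSubalgebra 3 K)
    {c t : GL (Fin 3) F} (hcK : (c : Matrix (Fin 3) (Fin 3) F) ∈ K) (hcS : c ∈ S3 F)
    (hord : orderOf c = Fintype.card F ^ 2 + Fintype.card F + 1) (ht2 : t * t = 1) (ht1 : t ≠ 1)
    {M : Subgroup (GL (Fin 3) F)} (hM : IsMaximalIn (S3 F) M) (hcM : c ∈ M) (htM : t ∈ M) : False := by
  classical
  have hfin : Finite (GL (Fin 3) F) := inferInstance
  obtain ⟨q, hq⟩ : ∃ q, q = Fintype.card F := ⟨_, rfl⟩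
  have hq2 : 2 ≤ q := by rw [hq]; exact Fintype.one_lt_card
  obtain ⟨p, n, hchar, hp, hn, hpn⟩ : ∃ p n : ℕ, CharP F p ∧ p.Prime ∧ 0 < n ∧ Fintype.card F = p ^ n := by
    obtain ⟨p, hc, n, hp, h⟩ := FiniteField.card' F
    exact ⟨p, n, hc, hp, n.pos, h⟩
  have hpf : Fact p.Prime := ⟨hp⟩
  have hm7 : 7 ≤ q ^ 2 + q + 1 := by nlinarith
  have hdvd : q ^ 2 + q + 1 ∣ Nat.card M := by
    rw [hq, ← hord, ← Subgroup.orderOf_mk c hcM]
    exact orderOf_dvd_natCard _
  have hns1 : ¬ ∃ a : F, (c : Matrix (Fin 3) (Fin 3) F) = a • (1 : Matrix (Fin 3) (Fin 3) F) := by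
    have := not_scalar_pow hcS hord (m := 1) (by norm_num) (by rw [← hq]; omega)
    simpa using this
  rcases S5775.result M hM with ⟨W, h0, h1, rfl⟩ | ⟨h5, D, hD, rfl⟩ | ⟨-, K', hK', rfl⟩ | ⟨F₀, r, P, hr, hcard, rfl⟩ |
    ⟨p', R', hp', hF', hp3', hR', rfl⟩ | ⟨hodd, Q', hQ', rfl⟩ | ⟨σ, f, hf, rfl⟩ | hres
  · exact irr_excl (field_irr hK hcK hns1 hcM) h0 h1 inf_le_left
  · obtain ⟨v, hv, a, hva⟩ := decomp_six hD hcM.1
    -- `c ^ 6` is scalar
    have h6K : (c : Matrix (Fin 3) (Fin 3) F) ^ 6 - a • (1 : Matrix (Fin 3) (Fin 3) F) ∈ K :=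
      K.sub_mem (K.pow_mem hcK 6) (K.smul_mem K.one_mem a)
    have h6 : (c : Matrix (Fin 3) (Fin 3) F) ^ 6 - a • (1 : Matrix (Fin 3) (Fin 3) F) = 0 := by
      by_contra hne
      obtain ⟨u, hu⟩ := isUnit_of_mem hK _ h6K hne
      apply hv
      have hz : (u : Matrix (Fin 3) (Fin 3) F) *ᵥ v = 0 := by
        rw [hu, Matrix.sub_mulVec, Matrix.smul_mulVec, Matrix.one_mulVec, ← Units.val_pow_eq_pow_val, hva, sub_self]
      calc v = ((u⁻¹ : (Matrix (Fin 3) (Fin 3) F)ˣ) : Matrix (Fin 3) (Fin 3) F) *ᵥ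
            ((u : Matrix (Fin 3) (Fin 3) F) *ᵥ v) := by
            rw [Matrix.mulVec_mulVec, Units.inv_mul, Matrix.one_mulVec]
        _ = 0 := by rw [hz, Matrix.mulVec_zero]
    refine not_scalar_pow hcS hord (m := 6) (by norm_num) ?_ ⟨a, sub_eq_zero.1 h6⟩
    nlinarith
  · exact ht1 (no_involution hK' htM.1 htM.2 ht2)
  · have hc1 : 2 ≤ Nat.card F₀ := by
      have : Finite F₀ := inferInstance
      exact Finite.one_lt_card
    have hc2 : Nat.card F₀ ^ 2 ≤ q := pow_two_le hr (by rw [hq, hcard]) (by omega)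
    apply arith_sub hc1 hc2 (by rw [hq]; exact h4)
    rw [hq]
    exact sub_root hK (by nlinarith [hq]) hcK hcS hord hcM.1
  · have h3 : (3 : F) ≠ 0 := by
      intro h
      have h5 : ((3 : ℕ) : F) = 0 := by exact_mod_cast h
      rw [CharP.cast_eq_zero_iff F p] at h5
      have h6 : p = 3 := (Nat.prime_dvd_prime_iff_eq hp Nat.prime_three).1 h5
      have h7 : p ∣ p' := by rw [← hF', hpn]; exact dvd_pow_self p hn.ne'
      rw [h6] at h7
      omega
    obtain ⟨ω, hω⟩ : ∃ ω : F, ω * ω + ω + 1 = 0 := H960.exists_omega (by rw [hF']; omega)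
    obtain ⟨hc, he, hn'⟩ := data_card hR'
    obtain ⟨Q, a, b, ω', HH⟩ := H960.exists_heis h3 hω hc he hn'
    have hqp : q = p' := by rw [hq, hF']
    have hp'1 : 4 ≤ p' := by
      have := hp'.two_le
      omega
    obtain ⟨r, hr, hr2, hr3, hrd⟩ := exists_prime_factor (q := q) (by omega) (by omega)
    have : Fact r.Prime := ⟨hr⟩
    obtain ⟨k, hk⟩ := hrd
    have hk' : orderOf c = r * k := by rw [hord, ← hq, hk]
    have hk0 : k ≠ 0 := by
      rintro rfl
      rw [mul_zero] at hk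
      omega
    have hck : (c ^ k) ^ r = 1 := by
      rw [← pow_mul, mul_comm, ← hk', pow_orderOf_eq_one]
    have h1 := norm_prime h3 hc HH hr2 hr3 (y := c ^ k) (Subgroup.pow_mem _ hcM.1 k)
      ((S3 F).pow_mem hcS k) hck
    have h2 := orderOf_dvd_of_pow_eq_one h1
    rw [hk'] at h2
    have h5 := Nat.le_of_dvd (Nat.pos_of_ne_zero hk0) h2
    have h6 := hr.two_le
    nlinarith [Nat.pos_of_ne_zero hk0]
  · have hq3 : 3 ≤ q := by
      rcases Nat.lt_or_ge q 3 with h | h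
      · have : q = 2 := by omega
        rw [← hq, this] at hodd
        exact absurd hodd (by decide)
      · exact h
    apply arith_quad hq3
    have := form_root hK p 0 (σ := RingHom.id F) (fun x => by simp) (Sesq.of_quad hQ') hcK hcS hord
      (quad_le_sim hcM.1)
    rw [pow_zero, ← hq] at this
    exact this
  · obtain ⟨q₁, hq₁, hσ⟩ := unit_card hf
    have hk : ∃ k, q₁ = p ^ k := by
      have h1 : q₁ ∣ p ^ n := by
        rw [← hpn, hq₁]; exact dvd_pow_self q₁ two_ne_zero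
      obtain ⟨k, -, hk⟩ := (Nat.dvd_prime_pow hp).1 h1
      exact ⟨k, hk⟩
    obtain ⟨k, hk⟩ := hk
    have h2 : 2 ≤ q₁ := by
      rcases Nat.lt_or_ge q₁ 2 with h | h
      · have h1 : q₁ ^ 2 ≤ 1 := by nlinarith
        omega
      · exact h
    apply arith_unit h2 (hq.trans hq₁)
    have := form_root hK p k (σ := (σ : F →+* F)) (fun x => by
      rw [← hk]; exact hσ x) (Sesq.of_unitary hf) hcK hcS hord hcM.1
    rw [← hk, ← hq] at this
    exact this
  · obtain ⟨P, p', hcore, hp', hchar', h | ⟨⟨e⟩, h⟩⟩ := S5776.result M hM hres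
    · obtain ⟨⟨e⟩, hFp, hp2, -⟩ := h
      rcases arith_l hq2 (hdvd.trans (card_of_l hcore hM.1.le e)) with h | h
      · rw [← hq, h] at hFp; exact hp2 hFp.symm
      · rw [← hq, h] at hFp; rw [← hFp] at hp'; norm_num at hp'
    · exact arith_a hq2 (hdvd.trans (card_of_a hcore hM.1.le e))

theorem exists_max {X : Type} [Group X] [Finite X] {K M : Subgroup X} (h : M < K) :
    ∃ M' : Subgroup X, M ≤ M' ∧ IsMaximalIn K M' := by
  obtain ⟨M', ⟨h1, h2⟩, h3⟩ := Set.Finite.exists_maximalFor (fun M' : Subgroup X => Nat.card M')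
    {M' : Subgroup X | M ≤ M' ∧ M' < K} (Set.toFinite _) ⟨M, le_rfl, h⟩
  refine ⟨M', h1, h2, fun N hN hNK => ?_⟩
  rcases eq_or_lt_of_le hNK with h4 | h4
  · exact Or.inr h4
  · exact Or.inl (Subgroup.eq_of_le_of_card_ge hN (h3 (j := N) ⟨h1.trans hN, h4⟩ (Subgroup.card_le_of_le hN))).symm

theorem fac {q : ℕ} (hq : 1 ≤ q) : q ^ 3 - 1 = (q - 1) * (q ^ 2 + q + 1) := by
  obtain ⟨n, rfl⟩ := Nat.exists_eq_add_of_le' hq
  rw [Nat.add_sub_cancel]
  exact Nat.sub_eq_of_eq_add (by ring)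

/-- a Singer element in companion form -/
theorem exists_cg : ∃ (a b : F) (K : Subalgebra F (Matrix (Fin 3) (Fin 3) F)), IsFieldSubalgebra 3 K ∧ cmat a b ∈ K ∧
    orderOf (cg a b) = Fintype.card F ^ 2 + Fintype.card F + 1 := by
  classical
  obtain ⟨p, hp⟩ := CharP.exists F
  have : Fact p.Prime := ⟨CharP.char_is_prime F p⟩
  have : NeZero 3 := ⟨three_ne_zero⟩
  let L := FiniteField.Extension F p 3
  have hL : Module.finrank F L = 3 := FiniteField.finrank_extension F p 3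
  have hq : 1 < Fintype.card F := Fintype.one_lt_card
  have hc : Nat.card Lˣ = Fintype.card F ^ 3 - 1 := by
    rw [Nat.card_units, Module.natCard_eq_pow_finrank (K := F), hL, Nat.card_eq_fintype_card]
  obtain ⟨g, hg⟩ := IsCyclic.exists_generator (α := Lˣ)
  have h1 : orderOf (g ^ (Fintype.card F - 1)) = Fintype.card F ^ 2 + Fintype.card F + 1 := by
    rw [orderOf_pow' g (by omega), orderOf_eq_card_of_forall_mem_zpowers hg, hc, fac hq.le, Nat.gcd_mul_right_left,
      Nat.mul_div_cancel_left _ (by omega)]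
  obtain ⟨l, hl⟩ : ∃ l : L, l = ((g ^ (Fintype.card F - 1) : Lˣ) : L) := ⟨_, rfl⟩
  have h2 : orderOf l = Fintype.card F ^ 2 + Fintype.card F + 1 := by rw [hl, orderOf_units, h1]
  have h3 : Algebra.norm F l = 1 := by
    rw [hl, Units.val_pow_eq_pow_val, map_pow]
    exact FiniteField.pow_card_sub_one_eq_one _ (Algebra.norm_ne_zero_iff.2 g.ne_zero)
  have h4 : (minpoly F l).natDegree = 3 := by
    have h5 := minpoly.degree_dvd (K := F) (Algebra.IsIntegral.isIntegral l)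
    rw [hL] at h5
    refine ((Nat.dvd_prime Nat.prime_three).1 h5).resolve_left fun h6 => ?_
    obtain ⟨u, hu⟩ := minpoly.natDegree_eq_one_iff.1 h6
    have h7 : u ≠ 0 := fun e => by
      rw [e, map_zero, hl] at hu
      exact Units.ne_zero _ hu.symm
    have h8 : l ^ (Fintype.card F - 1) = 1 := by
      rw [← hu, ← map_pow, FiniteField.pow_card_sub_one_eq_one _ h7, map_one]
    have h9 := Nat.le_of_dvd (by omega) (h2 ▸ orderOf_dvd_of_pow_eq_one h8)
    omega
  have h5 : LinearIndependent F fun i : Fin 3 => l ^ (i : ℕ) := by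
    have := linearIndependent_pow (K := F) l
    rwa [h4] at this
  let B : Module.Basis (Fin 3) F L := basisOfLinearIndependentOfCardEqFinrank h5 (by rw [hL, Fintype.card_fin])
  have hB : ∀ i, B i = l ^ (i : ℕ) := fun i => by
    simp only [B, coe_basisOfLinearIndependentOfCardEqFinrank]
  have c0 : ∀ i, Algebra.leftMulMatrix B l i 0 = Finsupp.single (1 : Fin 3) (1 : F) i := fun i => by
    rw [Algebra.leftMulMatrix_eq_repr_mul, ← B.repr_self, hB, hB]
    simp
  have c1 : ∀ i, Algebra.leftMulMatrix B l i 1 = Finsupp.single (2 : Fin 3) (1 : F) i := fun i => by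
    rw [Algebra.leftMulMatrix_eq_repr_mul, ← B.repr_self, hB, hB]
    simp [sq]
  have hd : Algebra.leftMulMatrix B l 0 2 = 1 := by
    rw [Algebra.norm_eq_matrix_det B, Matrix.det_fin_three] at h3
    simpa [c0, c1] using h3
  have he : Algebra.leftMulMatrix B l = cmat (Algebra.leftMulMatrix B l 2 2) (-Algebra.leftMulMatrix B l 1 2) := by
    ext i j
    fin_cases i <;> fin_cases j <;> simp [cmat, c0, c1, hd]
  have hi := Algebra.leftMulMatrix_injective B
  refine ⟨_, _, (Algebra.leftMulMatrix B).range, ⟨?_, ?_, ?_⟩, ⟨l, he⟩, ?_⟩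
  · rintro _ ⟨x, rfl⟩ _ ⟨y, rfl⟩
    change Algebra.leftMulMatrix B x * Algebra.leftMulMatrix B y = Algebra.leftMulMatrix B y * Algebra.leftMulMatrix B x
    rw [← map_mul, ← map_mul, mul_comm]
  · rintro _ ⟨x, rfl⟩ h0
    refine ⟨_, ⟨x⁻¹, rfl⟩, ?_⟩
    change Algebra.leftMulMatrix B x * Algebra.leftMulMatrix B x⁻¹ = 1
    rw [← map_mul, mul_inv_cancel₀ fun e => h0 (by rw [e]; exact map_zero _), map_one]
  · rw [← (AlgEquiv.ofInjective _ hi).toLinearEquiv.finrank_eq, hL]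
  · rw [← orderOf_units, ← h2, ← orderOf_injective (Algebra.leftMulMatrix B).toMonoidHom hi l]
    exact congrArg orderOf he.symm

/-- the involution -/
def xm (a b : F) : Matrix (Fin 3) (Fin 3) F := !![1, 0, 0; a - b, -1, 0; a + b, 0, -1]

/-- the conjugating element -/
def wm : Matrix (Fin 3) (Fin 3) F := !![0, 0, 1; 0, -1, 0; 1, 0, 0]

theorem xm_det (a b : F) : (xm a b).det = 1 := by
  rw [Matrix.det_fin_three]
  simp [xm]

theorem wm_det : (wm : Matrix (Fin 3) (Fin 3) F).det = 1 := by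
  rw [Matrix.det_fin_three]
  simp [wm]

theorem xm_sq (a b : F) : xm a b * xm a b = 1 := by
  ext i j
  fin_cases i <;> fin_cases j <;> simp [xm, Matrix.mul_apply, Fin.sum_univ_three]

theorem rel (a b : F) : xm a b * cmat a b * wm * cmat a b = wm := by
  ext i j
  fin_cases i <;> fin_cases j <;> simp [xm, wm, cmat, Matrix.mul_apply, Fin.sum_univ_three]

theorem det_sub (a : F) : (cmat a a - 1).det = 0 := by
  rw [Matrix.det_fin_three]
  simp [cmat]

/-- an element of `SL₃` -/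
def sl (M : Matrix (Fin 3) (Fin 3) F) (h : M.det = 1) : Matrix.SpecialLinearGroup (Fin 3) F := ⟨M, h⟩

/-- **generation** -/
theorem gen (h4 : Fintype.card F ≠ 4) : ∃ x y w : Matrix.SpecialLinearGroup (Fin 3) F, x ^ 2 = 1 ∧ x * y = w * y⁻¹ * w⁻¹ ∧
    y ^ ((Fintype.card F ^ 2 + Fintype.card F + 1) / Nat.gcd 3 (Fintype.card F - 1)) ∈
      Subgroup.center (Matrix.SpecialLinearGroup (Fin 3) F) ∧
    Subgroup.closure ({x, y} : Set (Matrix.SpecialLinearGroup (Fin 3) F)) = ⊤ := by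
  classical
  obtain ⟨a, b, K, hK, hc, ho⟩ := exists_cg (F := F)
  have hq : 1 < Fintype.card F := Fintype.one_lt_card
  have hab : a ≠ b := by
    rintro rfl
    have h1 := isUnit_of_mem hK _ (K.sub_mem hc K.one_mem) fun e => cg_ne a a (Units.ext (sub_eq_zero.1 e))
    exact ((Matrix.isUnit_iff_isUnit_det _).1 h1).ne_zero (det_sub a)
  refine ⟨sl _ (xm_det a b), sl _ (cmat_det a b), sl _ wm_det, ?_, ?_, ?_, ?_⟩
  · rw [sq]
    exact Subtype.ext (xm_sq a b)
  · rw [eq_mul_inv_iff_mul_eq, eq_mul_inv_iff_mul_eq]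
    exact Subtype.ext (rel a b)
  · have hN : cmat a b ^ (Fintype.card F ^ 2 + Fintype.card F + 1) = 1 := by
      have := congrArg Units.val (pow_orderOf_eq_one (cg a b))
      rwa [ho, Units.val_pow_eq_pow_val] at this
    rcases (Nat.dvd_prime Nat.prime_three).1 (Nat.gcd_dvd_left 3 (Fintype.card F - 1)) with h | h
    · have h5 : sl _ (cmat_det a b) ^ (Fintype.card F ^ 2 + Fintype.card F + 1) = 1 := Subtype.ext hN
      rw [h, Nat.div_one, h5]
      exact one_mem _
    have h3 : 3 ∣ Fintype.card F - 1 := h ▸ Nat.gcd_dvd_right 3 _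
    obtain ⟨ω, hω⟩ := H960.exists_omega h3
    obtain ⟨n, hn⟩ : 3 ∣ Fintype.card F ^ 2 + Fintype.card F + 1 := by
      obtain ⟨k, hk⟩ := h3
      exact ⟨3 * k ^ 2 + 3 * k + 1, by rw [show Fintype.card F = 3 * k + 1 by omega]; ring⟩
    rw [h, hn, Nat.mul_div_cancel_left _ three_pos]
    rw [hn, pow_mul'] at hN
    obtain ⟨z, hz⟩ : ∃ z, z = cmat a b ^ n := ⟨_, rfl⟩
    have hzK : z ∈ K := hz ▸ K.pow_mem hc n
    rw [← hz] at hN
    have key : ∀ u : F, z = u • 1 → (sl _ (cmat_det a b) : Matrix.SpecialLinearGroup (Fin 3) F) ^ n ∈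
        Subgroup.center (Matrix.SpecialLinearGroup (Fin 3) F) := fun u hu => Subgroup.mem_center_iff.2 fun g => Subtype.ext (by
      change g.1 * cmat a b ^ n = cmat a b ^ n * g.1
      rw [← hz, hu, Matrix.mul_smul, Matrix.smul_mul, mul_one, one_mul])
    have un : ∀ u : F, z ≠ u • 1 → IsUnit (z - u • 1) := fun u hu =>
      isUnit_of_mem hK _ (K.sub_mem hzK (K.smul_mem K.one_mem u)) (sub_ne_zero.2 hu)
    by_contra hcon
    have h5 := ((un 1 fun e => hcon (key _ e)).mul (un ω fun e => hcon (key _ e))).mul (un (ω * ω) fun e => hcon (key _ e))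
    refine h5.ne_zero ?_
    have h6 : (z - (1 : F) • 1) * (z - ω • 1) * (z - (ω * ω) • 1) =
        z ^ 3 - (ω * ω + ω + 1) • z ^ 2 + (ω * (ω * ω + ω + 1)) • z - ((ω - 1) * (ω * ω + ω + 1) + 1) • 1 := by
      simp only [sub_mul, mul_sub, smul_mul_assoc, mul_smul_comm, mul_one, one_mul, pow_succ, pow_zero]
      module
    rw [h6, hω, hN]
    simp
  · by_contra hne
    have hlt : (Subgroup.closure ({sl _ (xm_det a b), sl _ (cmat_det a b)} :
        Set (Matrix.SpecialLinearGroup (Fin 3) F))).map Matrix.SpecialLinearGroup.toGL < S3 F := by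
      refine lt_of_le_of_ne ?_ fun e => hne (eq_top_iff.2 fun g _ => ?_)
      · rintro _ ⟨g, -, rfl⟩
        exact (H905.mem_sl_iff _).2 g.2
      · obtain ⟨g', h1, h2⟩ := e.ge ((H905.mem_sl_iff (Matrix.SpecialLinearGroup.toGL g)).2 g.2)
        exact Matrix.SpecialLinearGroup.toGL_injective h2 ▸ h1
    obtain ⟨M, h1, h2⟩ := exists_max hlt
    refine ov h4 hK (c := cg a b) (t := gl (xm a b) (xm_det a b)) hc (cg_mem a b) ho (Units.ext (xm_sq a b)) (fun e => hab ?_) h2
      (h1 ⟨_, Subgroup.subset_closure (Or.inr rfl), rfl⟩) (h1 ⟨_, Subgroup.subset_closure (Or.inl rfl), rfl⟩)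
    have h3 : xm a b 1 0 = (1 : Matrix (Fin 3) (Fin 3) F) 1 0 := congrArg (fun g : GL (Fin 3) F => g.1 1 0) e
    simpa [xm, sub_eq_zero] using h3

end Cfsg.Agent.N2.Ex.Sm.LT
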