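import Cfsg.Agent.H956.UnitSim
import Cfsg.Agent.H422.Recur
import Cfsg.Agent.H418.SUEig

/-!
# N2 (S3519), simple socle: `(2, n, n)`-triples in `U₃(q)`, the matrices (helper67)

`C` is the companion matrix of `T³ - t T² + s T - 1`, `s = t ^ q`; it keeps the hermitian form `fJ`, whose Gram matrix is a
Toeplitz matrix; `X = -1 + e₀ fJ(·, e₀)` is an involution, and `X C` has the characteristic polynomial of `C⁻¹`.
-/

set_option autoImplicit false
set_option linter.unusedSectionVars false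

namespace Cfsg.Agent.N2.Ex.Sm.U3

open Cfsg Matrix Module Cfsg.Agent.LieClassical.HermBasic
open scoped MatrixGroups

/-- equal cubic relations, equal orders -/
theorem transfer {F A B : Type*} [Field F] [Ring A] [Algebra F A] [Ring B] [Algebra F B] {a b c : F} {x : A} {y : B}
    (hx : x ^ 3 = a • x ^ 2 + b • x + c • (1 : A)) (hy : y ^ 3 = a • y ^ 2 + b • y + c • (1 : B))
    (hi : ∀ u v w : F, u • x ^ 2 + v • x + w • (1 : A) = 0 → u = 0 ∧ v = 0 ∧ w = 0) {k : ℕ} (hk : x ^ k = 1) :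
    y ^ k = 1 := by
  have key : ∀ k : ℕ, ∃ u v w : F, x ^ k = u • x ^ 2 + v • x + w • (1 : A) ∧ y ^ k = u • y ^ 2 + v • y + w • (1 : B) := by
    intro k
    induction k with
    | zero => exact ⟨0, 0, 1, by simp, by simp⟩
    | succ k ih =>
      obtain ⟨u, v, w, h1, h2⟩ := ih
      refine ⟨u * a + v, u * b + w, u * c, ?_, ?_⟩
      · rw [pow_succ, h1, add_mul, add_mul, smul_mul_assoc, smul_mul_assoc, smul_mul_assoc, ← pow_succ, hx, one_mul, ← pow_two]
        module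
      · rw [pow_succ, h2, add_mul, add_mul, smul_mul_assoc, smul_mul_assoc, smul_mul_assoc, ← pow_succ, hy, one_mul, ← pow_two]
        module
  obtain ⟨u, v, w, h1, h2⟩ := key k
  obtain ⟨h3, h4, h5⟩ := hi u v (w - 1) (by rw [sub_smul, one_smul, ← add_sub_assoc, ← h1, hk, sub_self])
  rw [h2, h3, h4, sub_eq_zero.1 h5]
  simp

section

variable {F : Type*} [Field F]

/-- no proper invariant subspace -/
def Irr (A : Matrix (Fin 3) (Fin 3) F) : Prop :=
  ∀ W : Submodule F (Fin 3 → F), W ≠ ⊥ → W ≠ ⊤ → (∀ v ∈ W, A *ᵥ v ∈ W) → False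

theorem Irr.of_pow {A : Matrix (Fin 3) (Fin 3) F} {k : ℕ} (h : Irr (A ^ k)) : Irr A := by
  intro W h0 h1 hW
  refine h W h0 h1 ?_
  clear h
  induction k with
  | zero => intro v hv; simpa using hv
  | succ k ih => intro v hv; rw [pow_succ', ← mulVec_mulVec]; exact hW _ (ih v hv)

theorem span_ne_top (u v : Fin 3 → F) : Submodule.span F ({u, v} : Set (Fin 3 → F)) ≠ ⊤ := by
  classical
  intro h1
  have h2 := finrank_span_le_card (R := F) ({u, v} : Set (Fin 3 → F))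
  rw [h1, finrank_top, Module.finrank_fin_fun, Set.toFinset_insert, Set.toFinset_singleton] at h2
  have := Finset.card_le_two (a := u) (b := v)
  omega

theorem Irr.indep {A : Matrix (Fin 3) (Fin 3) F} (h : Irr A) (u v w : F)
    (h0 : u • A ^ 2 + v • A + w • (1 : Matrix (Fin 3) (Fin 3) F) = 0) : u = 0 ∧ v = 0 ∧ w = 0 := by
  have he : (Pi.single 0 1 : Fin 3 → F) ≠ 0 := fun h1 => by simpa using congrFun h1 0
  obtain ⟨e, hed⟩ : ∃ e : Fin 3 → F, e = Pi.single 0 1 := ⟨_, rfl⟩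
  rw [← hed] at he
  have key : ∀ a b : F, A *ᵥ (A *ᵥ e) = a • A *ᵥ e + b • e → False := by
    intro a b h1
    have m1 : e ∈ Submodule.span F ({e, A *ᵥ e} : Set (Fin 3 → F)) := Submodule.subset_span (by simp)
    have m2 : A *ᵥ e ∈ Submodule.span F ({e, A *ᵥ e} : Set (Fin 3 → F)) := Submodule.subset_span (by simp)
    refine h _ (fun h2 => he (by rwa [h2, Submodule.mem_bot] at m1)) (span_ne_top e (A *ᵥ e)) fun x hx => ?_
    obtain ⟨c, d, rfl⟩ := Submodule.mem_span_pair.1 hx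
    rw [mulVec_add, mulVec_smul, mulVec_smul, h1]
    exact add_mem (Submodule.smul_mem _ _ m2)
      (Submodule.smul_mem _ _ (add_mem (Submodule.smul_mem _ _ m2) (Submodule.smul_mem _ _ m1)))
  have h1 : u • A *ᵥ (A *ᵥ e) + v • A *ᵥ e + w • e = 0 := by
    have := congrArg (fun M => M *ᵥ e) h0
    simpa only [add_mulVec, smul_mulVec, one_mulVec, zero_mulVec, pow_two, ← mulVec_mulVec] using this
  have hu : u = 0 := by
    by_contra hu
    refine key (-(u⁻¹ * v)) (-(u⁻¹ * w)) ?_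
    have h2 : A *ᵥ (A *ᵥ e) = u⁻¹ • (u • A *ᵥ (A *ᵥ e)) := by rw [smul_smul, inv_mul_cancel₀ hu, one_smul]
    rw [h2, eq_neg_of_add_eq_zero_left ((add_assoc _ _ _).symm.trans h1)]
    module
  rw [hu, zero_smul, zero_add] at h1
  have hv : v = 0 := by
    by_contra hv
    refine key (-(v⁻¹ * w)) 0 ?_
    have h2 : A *ᵥ e = (-(v⁻¹ * w)) • e := by
      have h2 : A *ᵥ e = v⁻¹ • (v • A *ᵥ e) := by rw [smul_smul, inv_mul_cancel₀ hv, one_smul]
      rw [h2, eq_neg_of_add_eq_zero_left h1]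
      module
    conv_lhs => rw [h2, mulVec_smul]
    rw [zero_smul, add_zero]
  rw [hv, zero_smul, zero_add] at h1
  exact ⟨hu, hv, (smul_eq_zero.1 h1).resolve_right he⟩

/-- the companion matrix -/
def Cm (t s : F) : Matrix (Fin 3) (Fin 3) F := !![0, 0, 1; 1, 0, -s; 0, 1, t]

/-- the involution -/
def Xm (t s : F) : Matrix (Fin 3) (Fin 3) F := !![1, t + s, t * (t + s) - 2 * s + (t + s); 0, -1, 0; 0, 0, -1]

theorem Cm_cube (t s : F) : Cm t s ^ 3 = t • Cm t s ^ 2 + (-s) • Cm t s + (1 : F) • (1 : Matrix (Fin 3) (Fin 3) F) := by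
  ext i j
  fin_cases i <;> fin_cases j <;> simp [Cm, pow_succ, Matrix.mul_apply, Fin.sum_univ_three] <;> ring

theorem Zm_cube (t s : F) : (Xm t s * Cm t s) ^ 3 = s • (Xm t s * Cm t s) ^ 2 + (-t) • (Xm t s * Cm t s) +
    (1 : F) • (1 : Matrix (Fin 3) (Fin 3) F) := by
  ext i j
  fin_cases i <;> fin_cases j <;> simp [Cm, Xm, pow_succ, Matrix.mul_apply, Fin.sum_univ_three] <;> ring

theorem Cm_indep (t s u v w : F) (h0 : u • Cm t s ^ 2 + v • Cm t s + w • (1 : Matrix (Fin 3) (Fin 3) F) = 0) :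
    u = 0 ∧ v = 0 ∧ w = 0 := by
  have h1 := congrFun (congrFun h0 0) 0
  have h2 := congrFun (congrFun h0 1) 0
  have h3 := congrFun (congrFun h0 2) 0
  simp [Cm, pow_succ] at h1 h2 h3
  exact ⟨h3, h2, h1⟩

theorem Xm_sq (t s : F) : Xm t s * Xm t s = 1 := by
  ext i j
  fin_cases i <;> fin_cases j <;> simp [Xm, Matrix.mul_apply, Fin.sum_univ_three]
  ring

theorem det_Cm (t s : F) : (Cm t s).det = 1 := by
  simp [Cm, det_fin_three]

theorem det_Xm (t s : F) : (Xm t s).det = 1 := by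
  simp [Xm, det_fin_three]

theorem Cm_vec (t s : F) (u : Fin 3 → F) :
    (Cm t s *ᵥ u) 0 = u 2 ∧ (Cm t s *ᵥ u) 1 = u 0 - s * u 2 ∧ (Cm t s *ᵥ u) 2 = u 1 + t * u 2 := by
  refine ⟨?_, ?_, ?_⟩ <;> simp [Cm, mulVec, dotProduct, Fin.sum_univ_three]
  ring

theorem Xm_vec (t s : F) (u : Fin 3 → F) :
    (Xm t s *ᵥ u) 0 = u 0 + (t + s) * u 1 + (t * (t + s) - 2 * s + (t + s)) * u 2 ∧ (Xm t s *ᵥ u) 1 = -u 1 ∧
      (Xm t s *ᵥ u) 2 = -u 2 := by
  refine ⟨?_, ?_, ?_⟩ <;> simp [Xm, mulVec, dotProduct, Fin.sum_univ_three]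

/-- an irreducible companion matrix has no eigenvalue one -/
theorem ne_of_irr {t s : F} (h : Irr (Cm t s)) : s ≠ t := by
  rintro rfl
  have h1 : Cm s s *ᵥ ![1, 1 - s, 1] = ![1, 1 - s, 1] := by
    obtain ⟨h1, h2, h3⟩ := Cm_vec s s ![1, 1 - s, 1]
    funext i
    fin_cases i
    · simpa using h1
    · simpa using h2
    · simpa using h3
  refine h (Submodule.span F {![1, 1 - s, 1], ![1, 1 - s, 1]}) (fun h2 => ?_) (span_ne_top _ _) fun x hx => ?_
  · have m1 : (![1, 1 - s, 1] : Fin 3 → F) ∈ Submodule.span F ({![1, 1 - s, 1], ![1, 1 - s, 1]} : Set (Fin 3 → F)) :=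
      Submodule.subset_span (by simp)
    rw [h2, Submodule.mem_bot] at m1
    simpa using congrFun m1 0
  · obtain ⟨c, d, rfl⟩ := Submodule.mem_span_pair.1 hx
    rwa [mulVec_add, mulVec_smul, mulVec_smul, h1]

theorem Xm_ne_one {t s : F} (h : s ≠ t) : Xm t s ≠ 1 := by
  intro h1
  have h2 := congrFun (congrFun h1 0) 1
  have h3 := congrFun (congrFun h1 1) 1
  simp only [Xm, of_apply, cons_val', cons_val_one, cons_val_zero, cons_val_fin_one, one_apply_eq] at h2 h3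
  rw [one_apply_ne (by decide)] at h2
  exact h (by linear_combination h2 + t * h3)

/-- the form -/
def fJ (σ : F →+* F) (t : F) (u w : Fin 3 → F) : F :=
  u 0 * (2 * σ (w 0) + (t + σ t) * σ (w 1) + (σ t * (t + σ t) - 2 * t + (t + σ t)) * σ (w 2)) +
    u 1 * ((t + σ t) * σ (w 0) + 2 * σ (w 1) + (t + σ t) * σ (w 2)) +
    u 2 * ((t * (t + σ t) - 2 * σ t + (t + σ t)) * σ (w 0) + (t + σ t) * σ (w 1) + 2 * σ (w 2))

variable {σ : F →+* F} (hσ : ∀ x, σ (σ x) = x) (t : F)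

include hσ

theorem fJ_herm (u w : Fin 3 → F) : fJ σ t u w = σ (fJ σ t w u) := by
  simp only [fJ, map_add, map_mul, map_sub, map_ofNat, hσ]
  ring

theorem fJ_Cm (u w : Fin 3 → F) : fJ σ t (Cm t (σ t) *ᵥ u) (Cm t (σ t) *ᵥ w) = fJ σ t u w := by
  obtain ⟨h1, h2, h3⟩ := Cm_vec t (σ t) u
  obtain ⟨h4, h5, h6⟩ := Cm_vec t (σ t) w
  simp only [fJ, h1, h2, h3, h4, h5, h6, map_add, map_mul, map_sub, hσ]
  ring

theorem fJ_Xm (u w : Fin 3 → F) : fJ σ t (Xm t (σ t) *ᵥ u) (Xm t (σ t) *ᵥ w) = fJ σ t u w := by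
  obtain ⟨h1, h2, h3⟩ := Xm_vec t (σ t) u
  obtain ⟨h4, h5, h6⟩ := Xm_vec t (σ t) w
  simp only [fJ, h1, h2, h3, h4, h5, h6, map_add, map_mul, map_sub, map_neg, map_ofNat, hσ]
  ring

theorem fJ_nondeg (h : Irr (Cm t (σ t))) {u : Fin 3 → F} (hu : ∀ w, fJ σ t u w = 0) : u = 0 := by
  let W : Submodule F (Fin 3 → F) :=
    { carrier := {u | ∀ w, fJ σ t u w = 0}
      add_mem' := fun {a b} ha hb w => by
        have h1 := ha w
        have h2 := hb w
        simp only [fJ, Pi.add_apply] at h1 h2 ⊢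
        linear_combination h1 + h2
      zero_mem' := fun w => by simp [fJ]
      smul_mem' := fun c a ha w => by
        have h1 := ha w
        simp only [fJ, Pi.smul_apply, smul_eq_mul] at h1 ⊢
        linear_combination c * h1 }
  by_contra hu0
  refine h W (fun h1 => hu0 ?_) (fun h1 => ne_of_irr h ?_) fun v hv w => ?_
  · have h2 : u ∈ W := hu
    rwa [h1, Submodule.mem_bot] at h2
  · have h2 : (Pi.single 0 1 : Fin 3 → F) ∈ W := by rw [h1]; trivial
    have h3 := h2 (Pi.single 0 1)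
    have h4 := h2 (Pi.single 1 1)
    simp [fJ] at h3 h4
    linear_combination h4 - t * h3
  · have h1 : Cm t (σ t) *ᵥ ((Cm t (σ t))⁻¹ *ᵥ w) = w := by
      rw [mulVec_mulVec, mul_nonsing_inv _ (by rw [det_Cm]; exact isUnit_one), one_mulVec]
    rw [← h1, fJ_Cm hσ]
    exact hv _

end

section

variable {F : Type*} [Field F] [Fintype F] {q : ℕ}

/-- Cayley and Hamilton -/
theorem su_cube (hF : Fintype.card F = q ^ 2) (g : SU 3 F q) {A : Matrix (Fin 3) (Fin 3) F}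
    (hA : ((g : SL(3, F)) : Matrix (Fin 3) (Fin 3) F) = A) :
    A ^ 3 = A.trace • A ^ 2 + (-(conj hF A.trace)) • A + (1 : F) • (1 : Matrix (Fin 3) (Fin 3) F) := by
  have h1 := Cfsg.Agent.H418.SUEig.su_mat g.2 (q_pos hF)
  have h2 : A.det = 1 := hA ▸ (g : SL(3, F)).2
  rw [hA] at h1
  have h3 : adjugate A = (A.map (fun x => x ^ q))ᵀ := by
    have h4 : (A.map (fun x => x ^ q))ᵀ * A = 1 := by
      have := congrArg transpose h1
      rwa [transpose_mul, transpose_transpose, transpose_one] at this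
    have h5 : A * adjugate A = 1 := by rw [mul_adjugate, h2, one_smul]
    rw [← one_mul (adjugate A), ← h4, mul_assoc, h5, mul_one]
  have h4 : (adjugate A).trace = conj hF A.trace := by
    rw [h3, trace_transpose, trace_fin_three, trace_fin_three, map_add, map_add]
    rfl
  rw [Cfsg.Agent.H422.Recur.ch3, h2, h4]

/-- the pair in the standard unitary group -/
theorem exists_pair (hF : Fintype.card F = q ^ 2) {t : F} (h : Irr (Cm t (conj hF t))) :
    ∃ (P : GL (Fin 3) F) (x y : SU 3 F q),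
      ((x : SL(3, F)) : Matrix (Fin 3) (Fin 3) F) = ((P⁻¹ : GL (Fin 3) F) : Matrix _ _ F) * Xm t (conj hF t) * (P : Matrix _ _ F) ∧
      ((y : SL(3, F)) : Matrix (Fin 3) (Fin 3) F) = ((P⁻¹ : GL (Fin 3) F) : Matrix _ _ F) * Cm t (conj hF t) * (P : Matrix _ _ F) := by
  set σ : F →+* F := (conj hF : F →+* F) with hσd
  have hσ : ∀ x, σ (σ x) = x := fun x => pow_q_pow_q hF x
  have hf : Cfsg.Geo.IsUnitaryFormPow q (fJ σ t) := by
    refine ⟨fun x y v => ?_, fun c x v => ?_, fun v w => fJ_herm hσ t v w, fun v hv => ?_⟩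
    · simp only [fJ, Pi.add_apply]
      ring
    · simp only [fJ, Pi.smul_apply, smul_eq_mul]
      ring
    · have h1 : ∃ x, fJ σ t v x ≠ 0 := by
        by_contra h1
        push Not at h1
        exact hv (fJ_nondeg hσ t h h1)
      obtain ⟨x, hx⟩ := h1
      exact ⟨⟨x, fun h2 => hx (by rw [fJ_herm hσ, h2, map_zero])⟩, x, hx⟩
  obtain ⟨P, hP⟩ := Cfsg.Agent.H956.UnitSim.exists_frame hF hf
  have key : ∀ A : Matrix (Fin 3) (Fin 3) F, A.det = 1 → (∀ u w, fJ σ t (A *ᵥ u) (A *ᵥ w) = fJ σ t u w) →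
      ∃ x : SU 3 F q, ((x : SL(3, F)) : Matrix (Fin 3) (Fin 3) F) =
        ((P⁻¹ : GL (Fin 3) F) : Matrix _ _ F) * A * (P : Matrix _ _ F) := by
    intro A hd hA
    have h1 : (((P⁻¹ : GL (Fin 3) F) : Matrix _ _ F) * A * (P : Matrix _ _ F)).det = 1 := by
      rw [det_mul, det_mul, hd, mul_one, ← det_mul, ← Units.val_mul, inv_mul_cancel, Units.val_one, det_one]
    refine ⟨⟨⟨_, h1⟩, (mem_SU_iff _).2 fun u w => ?_⟩, rfl⟩
    have h2 : ∀ u : Fin 3 → F, (P : Matrix (Fin 3) (Fin 3) F) *ᵥ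
        ((((P⁻¹ : GL (Fin 3) F) : Matrix _ _ F) * A * (P : Matrix _ _ F)) *ᵥ u) = A *ᵥ ((P : Matrix _ _ F) *ᵥ u) := by
      intro u
      rw [mulVec_mulVec, mulVec_mulVec, ← mul_assoc, ← mul_assoc, ← Units.val_mul, mul_inv_cancel, Units.val_one, one_mul]
    rw [← hP, ← hP u w]
    exact (congrArg₂ (fJ σ t) (h2 u) (h2 w)).trans (hA _ _)
  obtain ⟨x, hx⟩ := key _ (det_Xm t (σ t)) (fJ_Xm hσ t)
  obtain ⟨y, hy⟩ := key _ (det_Cm t (σ t)) (fJ_Cm hσ t)
  exact ⟨P, x, y, hx, hy⟩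

end

end Cfsg.Agent.N2.Ex.Sm.U3
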